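import Cfsg.Agent.H891.DG.Defs
import Cfsg.Agent.KFacts.RgdLieCharP
import Cfsg.Agent.H248.TitsRGD

/-!
# Generation by two `r`-subgroups with nontrivial intersection (for S4180, helper274)

* `two_of_rgd` : a finite group generated by the root groups of a root group datum of characteristic `p` whose diagram
  has an edge is generated by two `p`-subgroups with nontrivial intersection, if the diagram is connected;
* `exists_two` : the same for a simple group with `Rk2 r T`.
-/

set_option autoImplicit false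
set_option linter.unusedSectionVars false

namespace Cfsg.Agent.H274.DG

open CoxeterSystem Cfsg.Agent.ChevalleyStructure.CoxeterGeom Cfsg.Agent.Tits.Roots Cfsg.Agent.Tits.Core
  Cfsg.Agent.Tits.RootComb Cfsg.Agent.Tits.Exchange Cfsg.Agent.Nodes.Reps Cfsg.Agent.Nodes.BNOf
  Cfsg.Agent.Nodes.StabComb Cfsg.Agent.Nodes.Bruhat Cfsg.Agent.Nodes.OppDec Cfsg.Agent.Nodes.LeviDec

section

variable {I W Y : Type*} [Fintype I] [DecidableEq I] [Group W] [Group Y] {M : CoxeterMatrix I}
  {cs : CoxeterSystem M W} {A : I → I → ℤ} {h : IsCartan M A} {p : ℕ} {T : Subgroup Y} {n : I → Y}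
  {X : (I → ℤ) → Subgroup Y}

theorem X_le_conj (R : RGD cs h p T n X) {j : I} {x : I → ℤ} (hx : IsRoot cs h x)
    (h0 : rep cs h (cs.simple j) x ≤ 0) : X x ≤ cj (n j) (UN cs h X) := by
  have h1 := R.conj j _ (hx.act (cs.simple j))
  rw [← rep_mul_apply, simple_mul_simple_self, map_one, Module.End.one_apply] at h1
  rw [← h1]
  exact cj_mono _ (X_le_UN (hx.act _) h0)

theorem mem_JU [Finite W] (R : RGD cs h p T n X) {P : Subgroup Y} {i : I} (h1 : X (sr i) ≤ P)
    (h2 : X (-sr i) ≤ P) : ∃ t ∈ T, t * n i ∈ P := by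
  obtain ⟨u, hu, hu1⟩ := exists_ne_one R i
  have h3 : n i * u * (n i)⁻¹ ∈ X (-sr i) := by
    have := R.conj_mem (rp_simple cs R.nsys i) (isRoot_sr cs h i) hu
    rwa [rep_simple_sr] at this
  have h4 : n i * u * (n i)⁻¹ ≠ 1 := fun h3 => hu1 (mul_eq_left.1 (mul_inv_eq_one.1 h3))
  obtain ⟨a, ha, t, ht, b, hb, e⟩ := R.rk1 i _ h3 h4
  refine ⟨t, ht, ?_⟩
  have h5 : t * n i = a⁻¹ * (n i * u * (n i)⁻¹) * b⁻¹ := by
    conv_rhs => rw [e]
    group
  rw [h5]
  exact mul_mem (mul_mem (inv_mem (h1 ha)) (h2 h3)) (inv_mem (h1 hb))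

theorem two_of_rgd [Finite W] (R : RGD cs h p T n X) (hG : Nodes.RGDLib.G1 cs h X = ⊤) {i j : I}
    (hij : i ≠ j) (hM : M i j ≠ 2) :
    ∃ A B : Subgroup Y, IsPGroup p A ∧ IsPGroup p B ∧ A ⊔ B = ⊤ ∧ A ⊓ B ≠ ⊥ := by
  have hUN : IsPGroup p (UN cs h X) := by
    obtain ⟨k, hk⟩ := exists_rp (cs := cs) (hN := R.nsys) (w0 cs)
    rw [← cj_U R hk]
    exact R.isPGroup_Upos.map _
  refine ⟨RGD.Sup X (RGD.Pos cs h), cj (n j) (UN cs h X), R.isPGroup_Upos, hUN.map _, ?_, ?_⟩
  · obtain ⟨P, hP⟩ : ∃ P : Subgroup Y, P = RGD.Sup X (RGD.Pos cs h) ⊔ cj (n j) (UN cs h X) := ⟨_, rfl⟩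
    rw [← hP]
    have hU : RGD.Sup X (RGD.Pos cs h) ≤ P := by rw [hP]; exact le_sup_left
    have hB : cj (n j) (UN cs h X) ≤ P := by rw [hP]; exact le_sup_right
    have hpos : ∀ k, X (sr k) ≤ P := fun k =>
      (RGD.le_Sup (S := RGD.Pos cs h) ⟨isRoot_sr cs h k, sr_nonneg k⟩).trans hU
    have hneg : ∀ k, k ≠ j → X (-sr k) ≤ P := by
      intro k hk
      refine (X_le_conj R (isRoot_sr cs h k).neg ?_).trans hB
      rw [map_neg]
      refine neg_nonpos.2 ?_
      refine nonneg_of_pos_apply (cs := cs) (h := h) ((isRoot_sr cs h k).act _) (k := k) ?_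
      rw [rep_simple_apply cs h j _ k hk, sr_self]
      exact one_pos
    have hnegj : X (-sr j) ≤ P := by
      obtain ⟨t, ht, hti⟩ := mem_JU R (hpos i) (hneg i hij)
      have h1 : X (-rep cs h (cs.simple i) (sr j)) ≤ P := by
        refine (X_le_conj R ((isRoot_sr cs h j).act _).neg ?_).trans hB
        rw [map_neg]
        refine neg_nonpos.2 ?_
        refine nonneg_of_pos_apply (cs := cs) (h := h) (((isRoot_sr cs h j).act _).act _) (k := i) ?_
        rw [rep_simple_apply cs h j _ i hij, rep_simple_apply_self, sr_ne hij, sr, pairing_single, mul_one,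
          zero_sub]
        have := cartan_neg h hij hM
        omega
      have h2 : cj (t * n i) (X (-rep cs h (cs.simple i) (sr j))) = X (-sr j) := by
        rw [cj_mul, R.conj i _ ((isRoot_sr cs h j).act _).neg, map_neg, ← rep_mul_apply, simple_mul_simple_self,
          map_one, Module.End.one_apply, R.tor _ (isRoot_sr cs h j).neg t ht]
      rw [← h2]
      intro y hy
      rw [mem_cj] at hy
      have e : y = (t * n i) * ((t * n i)⁻¹ * y * (t * n i)) * (t * n i)⁻¹ := by group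
      rw [e]
      exact mul_mem (mul_mem hti (h1 hy)) (inv_mem hti)
    have hJ : Cfsg.Agent.H248.TitsRGD.JU T n P = Set.univ := by
      rw [Set.eq_univ_iff_forall]
      intro k
      by_cases hk : k = j
      · subst hk
        exact mem_JU R (hpos k) hnegj
      · exact mem_JU R (hpos k) (hneg k hk)
    have h1 := Cfsg.Agent.H248.TitsRGD.Sup_le_of_univ R hU hJ
    rw [eq_top_iff, ← hG]
    exact h1
  · intro h1
    have h2 : X (sr j) ≤ RGD.Sup X (RGD.Pos cs h) ⊓ cj (n j) (UN cs h X) := by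
      refine le_inf (RGD.le_Sup (S := RGD.Pos cs h) ⟨isRoot_sr cs h j, sr_nonneg j⟩)
        (X_le_conj R (isRoot_sr cs h j) ?_)
      rw [rep_simple_sr]
      exact neg_nonpos.2 (sr_nonneg j)
    rw [h1] at h2
    exact X_ne_bot R (isRoot_sr cs h j) (le_bot_iff.1 h2)

end

universe u

/-- **Generation of a simple group with `Rk2`** by two `r`-subgroups. -/
theorem exists_two {r : ℕ} {T : Type u} [Group T] [Finite T] [IsSimpleGroup T] (hna : ¬ IsMulCommutative T)
    (h : Cfsg.Agent.H891.DG.Rk2 r T) :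
    ∃ A B : Subgroup T, IsPGroup r A ∧ IsPGroup r B ∧ A ⊔ B = ⊤ ∧ A ⊓ B ≠ ⊥ := by
  obtain ⟨l, M, A, h, H, n, X, hl, hW, R, hG⟩ := h
  have hc : ∃ a b : T, a * b ≠ b * a := by
    by_contra hcon
    push Not at hcon
    exact hna ⟨⟨hcon⟩⟩
  have hconn := Cfsg.Agent.KFacts.RgdLieCharP.conn_of_simple R hG
    (Cfsg.Agent.KFacts.RgdLieCharP.center_eq_bot hc)
  obtain ⟨a, ha, b, hb, hab⟩ := hconn {⟨0, by omega⟩} (Set.singleton_nonempty _) (by
    intro h1
    have h2 : (⟨1, by omega⟩ : Fin l) ∈ ({⟨0, by omega⟩} : Set (Fin l)) := by rw [h1]; trivial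
    rw [Set.mem_singleton_iff, Fin.mk.injEq] at h2
    omega)
  exact two_of_rgd R hG (fun h1 => hb (by rw [← h1]; exact ha)) hab

end Cfsg.Agent.H274.DG
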